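import Mathlib
import Cfsg.Agent.H364.SpLarge
import Cfsg.Agent.H364.SpCyc
import Cfsg.Agent.H364.DEnum

/-!
# The numbers `(q² + 1)/2` and `(q⁴ + q² + 1)/(3, q⁴ + q² + 1)` (helper200)
-/

set_option autoImplicit false

namespace Cfsg.Agent.H200.DF

open Cfsg.Agent.H902.Art Cfsg.Agent.H364.SpVal Cfsg.Agent.H364.SpLarge Cfsg.Agent.H364.SpSmall
open Cfsg.Agent.H72.AdjOrth
open Cfsg.Agent.H364.SpCyc (eta_ee)

/-- the part of the class `4` -/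
def A4 (q : ℕ) : ℕ := (q ^ 2 + 1) / 2

/-- the part of the classes `3` and `6` -/
def B36 (q : ℕ) : ℕ := (q ^ 4 + q ^ 2 + 1) / Nat.gcd (q ^ 4 + q ^ 2 + 1) 3

variable {q r : ℕ}

theorem two_A4 (hq : Odd q) : 2 * A4 q = q ^ 2 + 1 := by
  rw [A4]
  apply Nat.mul_div_cancel'
  obtain ⟨k, rfl⟩ := hq
  exact ⟨2 * k ^ 2 + 2 * k + 1, by ring⟩

theorem A4_odd (hq : Odd q) : Odd (A4 q) := by
  have h := two_A4 hq
  obtain ⟨k, rfl⟩ := hq
  exact ⟨k ^ 2 + k, by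
    have e : (2 * k + 1) ^ 2 + 1 = 2 * (2 * (k ^ 2 + k) + 1) := by ring
    omega⟩

theorem B36_mul (q : ℕ) : B36 q * Nat.gcd (q ^ 4 + q ^ 2 + 1) 3 = q ^ 4 + q ^ 2 + 1 :=
  Nat.div_mul_cancel (Nat.gcd_dvd_left _ _)

theorem B36_ge (q : ℕ) : q ^ 4 + q ^ 2 + 1 ≤ 3 * B36 q := by
  calc q ^ 4 + q ^ 2 + 1 = B36 q * Nat.gcd (q ^ 4 + q ^ 2 + 1) 3 := (B36_mul q).symm
    _ ≤ B36 q * 3 := Nat.mul_le_mul_left _ (Nat.gcd_le_right _ (by norm_num))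
    _ = _ := mul_comm _ _

theorem B36_dvd (q : ℕ) : B36 q ∣ q ^ 4 + q ^ 2 + 1 := Dvd.intro _ (B36_mul q)

theorem B36_odd (q : ℕ) : Odd (B36 q) := by
  have h : Odd (q ^ 4 + q ^ 2 + 1) := by
    rw [show q ^ 4 + q ^ 2 = q ^ 2 * (q ^ 2 + 1) by ring]
    exact (Nat.even_mul_succ_self _).add_one
  rw [← B36_mul] at h
  exact (Nat.odd_mul.1 h).1

theorem t3_eq (hq : Odd q) : t3 q = A4 q * B36 q := by
  have h1 : Nat.gcd (q ^ 2 + 1) 2 = 2 := Nat.gcd_eq_right (Dvd.intro _ (two_A4 hq))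
  rw [t3, h1, A4, B36]

theorem six_factor (hq : 1 ≤ q) : q ^ 6 - 1 = (q ^ 2 - 1) * (q ^ 4 + q ^ 2 + 1) := by
  obtain ⟨b, hb⟩ := Nat.exists_eq_add_of_le' (Nat.one_le_pow 2 q hq)
  have h4 : q ^ 4 = (b + 1) ^ 2 := by rw [← hb, ← pow_mul]
  have h6 : q ^ 6 = (b + 1) ^ 3 := by rw [← hb, ← pow_mul]
  rw [hb, h4, h6, Nat.add_sub_cancel]
  have e : (b + 1) ^ 3 = b * ((b + 1) ^ 2 + (b + 1) + 1) + 1 := by ring
  rw [e, Nat.add_sub_cancel]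

theorem four_factor (hq : 1 ≤ q) : q ^ 4 - 1 = (q ^ 2 - 1) * (q ^ 2 + 1) := by
  obtain ⟨b, hb⟩ := Nat.exists_eq_add_of_le' (Nat.one_le_pow 2 q hq)
  have h4 : q ^ 4 = (b + 1) ^ 2 := by rw [← hb, ← pow_mul]
  rw [hb, h4, Nat.add_sub_cancel]
  have e : (b + 1) ^ 2 = b * (b + 1 + 1) + 1 := by ring
  rw [e, Nat.add_sub_cancel]

theorem AA3 (q : ℕ) : AA 3 q = (q ^ 2 - 1) * (q ^ 4 - 1) * (q ^ 6 - 1) := by
  simp [AA, Finset.prod_range_succ]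

theorem num_D4 (hq : 1 ≤ q) : num (.D 4) q = (q ^ 2 - 1) ^ 4 * (q ^ 2 + 1) ^ 2 * (q ^ 4 + q ^ 2 + 1) := by
  have h1 : num (.D 4) q = (q ^ 4 - 1) * AA 3 q := rfl
  rw [h1, AA3, six_factor hq, four_factor hq]
  ring

/-- the primes of the class `4` -/
theorem ee_of_A4 (hq : 2 ≤ q) (ho : Odd q) (hr : r.Prime) (h : r ∣ A4 q) : ee q r = 4 := by
  have h1 : r ∣ q ^ 2 + 1 := h.trans (by rw [← two_A4 ho]; exact Dvd.intro_left _ rfl)
  have h2 : r ∣ t3 q := h.trans (by rw [t3_eq ho]; exact Dvd.intro _ rfl)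
  have h3 := t3_order hq hr h2
  have h4 : orderOf ((q ^ 2 : ℕ) : ZMod r) ∣ 2 := by
    rw [orderOf_dvd_iff_pow_eq_one]
    have h5 : ((q ^ 2 + 1 : ℕ) : ZMod r) = 0 := (ZMod.natCast_eq_zero_iff _ _).2 h1
    have h6 : ((q ^ 2 : ℕ) : ZMod r) = -1 := by
      rw [Nat.cast_add, Nat.cast_one] at h5
      exact eq_neg_of_add_eq_zero_left h5
    rw [h6]; ring
  have h5 := Nat.le_of_dvd (by norm_num) h4
  have h6 : eta (ee q r) = 2 := by rw [eta_ee]; omega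
  rw [eta] at h6
  split_ifs at h6 with h7
  · obtain ⟨k, hk⟩ := h7
    omega
  · exfalso
    rw [h6] at h7
    exact h7 (by decide)

/-- the primes of the classes `3` and `6` -/
theorem eta_of_B36 (hq : 2 ≤ q) (ho : Odd q) (hr : r.Prime) (h : r ∣ B36 q) : eta (ee q r) = 3 := by
  have h1 : r ∣ q ^ 4 + q ^ 2 + 1 := h.trans (B36_dvd q)
  have h2 : r ∣ t3 q := h.trans (by rw [t3_eq ho]; exact Dvd.intro_left _ rfl)
  have h3 := t3_order hq hr h2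
  have h4 : orderOf ((q ^ 2 : ℕ) : ZMod r) ∣ 3 := by
    rw [orderOf_dvd_iff_pow_eq_one]
    have h5 : ((q ^ 4 + q ^ 2 + 1 : ℕ) : ZMod r) = 0 := (ZMod.natCast_eq_zero_iff _ _).2 h1
    push_cast at h5 ⊢
    linear_combination ((q : ZMod r) ^ 2 - 1) * h5
  rw [eta_ee]
  rcases (Nat.dvd_prime Nat.prime_three).1 h4 with h5 | h5
  · omega
  · exact h5

theorem ne_two_of_A4 (ho : Odd q) (h : r ∣ A4 q) : r ≠ 2 := by
  rintro rfl
  exact (Nat.not_even_iff_odd.2 (A4_odd ho)) (even_iff_two_dvd.2 h)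

theorem ne_two_of_B36 (h : r ∣ B36 q) : r ≠ 2 := by
  rintro rfl
  exact (Nat.not_even_iff_odd.2 (B36_odd q)) (even_iff_two_dvd.2 h)

/-- the number `(Φ₄/2)² Φ₃Φ₆/3` -/
def TT (q : ℕ) : ℕ := A4 q ^ 2 * B36 q

theorem TT_dvd (hq : 1 ≤ q) (ho : Odd q) : TT q ∣ num (.D 4) q := by
  rw [num_D4 hq, TT, mul_assoc]
  refine (Nat.mul_dvd_mul (pow_dvd_pow_of_dvd ?_ 2) (B36_dvd q)).mul_left _
  rw [← two_A4 ho]
  exact Dvd.intro_left _ rfl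

theorem TT_odd (ho : Odd q) : Odd (TT q) := ((A4_odd ho).pow).mul (B36_odd q)

theorem TT_cases (hr : r.Prime) (h : r ∣ TT q) : r ∣ A4 q ∨ r ∣ B36 q := by
  rcases hr.dvd_mul.1 h with h | h
  · exact Or.inl (hr.dvd_of_dvd_pow h)
  · exact Or.inr h

theorem TT_ge (ho : Odd q) : q ^ 8 ≤ 12 * TT q := by
  have h1 : q ^ 4 ≤ 4 * A4 q ^ 2 := by
    have h2 := two_A4 ho
    calc q ^ 4 ≤ (q ^ 2 + 1) ^ 2 := by nlinarith [sq_nonneg q]
      _ = (2 * A4 q) ^ 2 := by rw [h2]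
      _ = _ := by ring
  have h2 := B36_ge q
  calc q ^ 8 = q ^ 4 * q ^ 4 := by ring
    _ ≤ (4 * A4 q ^ 2) * (3 * B36 q) := Nat.mul_le_mul h1 (by omega)
    _ = _ := by rw [TT]; ring

/-- the `r`-part of `|PΩ⁺(8, q)|`, `r` of class `4` -/
theorem P_A4 {p f M : ℕ} (hY : Real (.D 4) p f M) (hp2 : p ≠ 2) (hr : r.Prime) (hr2 : r ≠ 2) (he : ee (p ^ f) r = 4) :
    P r M = P r ((p ^ f) ^ 2 + 1) ^ 2 := by
  have hq := hY.q_ge
  set q := p ^ f with hqdef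
  have hrp : r ≠ p := by
    rintro rfl
    have h0 : (q : ZMod r) = 0 := by
      rw [hqdef, Nat.cast_pow, ZMod.natCast_self]
      exact zero_pow (by have := hY.hf; omega)
    rw [ee, h0] at he
    have hF := Fact.mk hr
    have h1 : (0 : ZMod r) ^ 4 = 1 := by rw [← he]; exact pow_orderOf_eq_one _
    norm_num at h1
  have h1 := hY.P_other hr hrp
  rw [← hqdef, num_D4 (by omega)] at h1
  have hdd : P r (dd (.D 4) q) = 1 := by
    apply P_eq_one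
    intro h
    have h2 : r ∣ 2 ^ 2 := h.trans (Nat.gcd_dvd_left _ _)
    exact hr2 ((Nat.prime_dvd_prime_iff_eq hr Nat.prime_two).1 (hr.dvd_of_dvd_pow h2))
  have hnot : ∀ k : ℕ, ¬ 4 ∣ k → ¬ r ∣ q ^ k - 1 := fun k hk h => by
    rw [Cfsg.Agent.Lib.Zsigmondy.dvd_pow_sub_one_iff (by omega)] at h
    have h2 : ee q r ∣ k := h
    rw [he] at h2
    exact hk h2
  have h2 : ¬ r ∣ q ^ 2 - 1 := hnot 2 (by norm_num)
  have h6 : ¬ r ∣ q ^ 4 + q ^ 2 + 1 := fun h => hnot 6 (by norm_num) (by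
    rw [six_factor (by omega)]; exact h.mul_left _)
  have hq2 : 2 ≤ q ^ 2 := by nlinarith
  rw [hdd, one_mul, P_mul (mul_ne_zero (pow_ne_zero _ (by omega)) (by positivity)) (by positivity),
    P_mul (pow_ne_zero _ (by omega)) (by positivity), P_eq_one h6,
    P_eq_one (a := (q ^ 2 - 1) ^ 4) (fun h => h2 (hr.dvd_of_dvd_pow h)), one_mul, mul_one] at h1
  rw [h1, sq, P_mul (by positivity) (by positivity), ← sq]

/-- the odd part of `q² + 1` -/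
theorem P_le_A4 (ho : Odd q) (hr : r.Prime) (hr2 : r ≠ 2) : P r (q ^ 2 + 1) ∣ A4 q := by
  have h1 : P r (q ^ 2 + 1) ∣ 2 * A4 q := by rw [two_A4 ho]; exact P_dvd _ _
  refine Nat.Coprime.dvd_of_dvd_mul_left ?_ h1
  rw [P]
  apply Nat.Coprime.pow_left
  rw [Nat.coprime_primes hr Nat.prime_two]
  exact hr2

end Cfsg.Agent.H200.DF
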